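import Cfsg.Agent.Characters.Core
import Cfsg.Agent.Characters.Linear
import Cfsg.Agent.Characters.Central
import Cfsg.Agent.CharactersDeep.NormalInd

/-!
# A constituent of the restriction to a normal subgroup off which an irreducible character vanishes

`χ` is an irreducible character of `G` that vanishes off the normal subgroup `N`, `ε` a constituent of the
restriction of `χ` to `N`, `U ≤ N` and `μ` a linear character of `U` that occurs at most once in `χ`.
-/

set_option autoImplicit false

open scoped ComplexConjugate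
open Cfsg
open Cfsg.Agent.Characters.Core

namespace Cfsg.Agent.H505.S4536.Abs

universe u

variable {G : Type u} [Group G] [Fintype G] (N : Subgroup G)

theorem classInner_res_eq_zero [Fintype N] {χ η : G → ℂ} (hoff : ∀ g, g ∉ N → χ g = 0)
    (h : classInner χ η = 0) :
    classInner (fun x : N => χ x) (fun x : N => η x) = 0 := by
  rw [classInner_def] at h ⊢
  have h1 := (mul_eq_zero.mp h).resolve_left (inv_ne_zero card_ne_zero_complex)
  have h2 : ∑ x : N, χ x * conj (η x) = ∑ g : G, χ g * conj (η g) := by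
    rw [← Cfsg.Agent.CharactersDeep.NormalInd.sum_extendByZero N (fun x : N => χ x * conj (η x))]
    refine Finset.sum_congr rfl fun g _ => ?_
    by_cases hg : g ∈ N
    · rw [extendByZero_of_mem _ _ hg]
    · rw [extendByZero_of_notMem _ _ hg, hoff g hg, zero_mul]
  rw [h2, h1, mul_zero]

theorem indFun_eq [Fintype N] {χ : G → ℂ} (hχ : IsIrrCharacter G χ) (hoff : ∀ g, g ∉ N → χ g = 0)
    {ε : N → ℂ} (hε : IsIrrCharacter N ε) (h0 : classInner ε (fun x : N => χ x) ≠ 0) :
    indFun N ε = classInner ε (fun x : N => χ x) • χ := by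
  classical
  have := finite_irr (G := N)
  have := Fintype.ofFinite (IrrCharacter N)
  apply classFunction_ext (Cfsg.Agent.CharactersDeep.NormalInd.indFun_isClassFunction N ε)
  · intro g h
    simp only [Pi.smul_apply, isIrr_isClassFunction hχ g h]
  intro η hη
  rw [Cfsg.Agent.CharactersDeep.NormalInd.classInner_indFun N ε η (isIrr_isClassFunction hη),
    classInner_smul_left]
  by_cases hηχ : χ = η
  · rw [← hηχ, classInner_irr_self hχ, mul_one]
  · rw [classInner_irr_ne hχ hη hηχ, mul_zero]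
    have h1 := classInner_res_eq_zero N (η := η) hoff (classInner_irr_ne hχ hη hηχ)
    have hχN : IsCharacter N (fun x : N => χ x) := isCharacter_comp N.subtype (isIrr_isCharacter hχ)
    have hηN : IsCharacter N (fun x : N => η x) := isCharacter_comp N.subtype (isIrr_isCharacter hη)
    obtain ⟨a, ha⟩ := exists_nat_comb hχN
    obtain ⟨b, hb⟩ := exists_nat_comb hηN
    have h2 : ∑ ψ : IrrCharacter N, a ψ * b ψ = 0 := by
      rw [ha, hb] at h1
      have h3 := classInner_sum_smul_sum_smul (fun ψ : IrrCharacter N => (a ψ : ℂ))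
        (fun ψ => (b ψ : ℂ))
      simp only [Nat.cast_smul_eq_nsmul] at h3
      rw [h1] at h3
      simp only [map_natCast] at h3
      exact_mod_cast h3.symm
    have h3 : classInner ε (fun x : N => χ x) = a ⟨ε, hε⟩ := by
      rw [← classInner_conj_symm, ha, classInner_sum_nsmul_irr a ⟨ε, hε⟩, map_natCast]
    have h4 : classInner ε (fun x : N => η x) = b ⟨ε, hε⟩ := by
      rw [← classInner_conj_symm, hb, classInner_sum_nsmul_irr b ⟨ε, hε⟩, map_natCast]
    rw [h4]
    rw [h3] at h0
    have h5 := (Finset.sum_eq_zero_iff.mp h2) ⟨ε, hε⟩ (Finset.mem_univ _)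
    rcases Nat.mul_eq_zero.mp h5 with h6 | h6
    · rw [h6] at h0
      exact absurd Nat.cast_zero h0
    · rw [h6, Nat.cast_zero]

/-- the function `x ↦ ε(g⁻¹ x g)` -/
noncomputable def E (ε : N → ℂ) (g : G) : G → ℂ := fun x => extendByZero N ε (g⁻¹ * x * g)

omit [Fintype G] in
theorem E_def (ε : N → ℂ) (g x : G) : E N ε g x = extendByZero N ε (g⁻¹ * x * g) := rfl

theorem sum_E (ε : N → ℂ) (x : G) : ∑ g : G, E N ε g x = (Nat.card N : ℂ) * indFun N ε x := by
  rw [indFun_apply, ← mul_assoc, mul_inv_cancel₀ card_ne_zero_complex, one_mul]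
  rfl

section normal

variable [hN : N.Normal]

omit [Fintype G] in
theorem E_of_mem (ε : N → ℂ) (g : G) (x : N) :
    E N ε g x = ε (MulAut.conjNormal g⁻¹ x) := by
  have h1 : g⁻¹ * (x : G) * g ∈ N := by
    have := hN.conj_mem x x.2 g⁻¹
    rwa [inv_inv] at this
  rw [E_def, extendByZero_of_mem _ _ h1]
  congr 1
  apply Subtype.ext
  rw [MulAut.conjNormal_apply, inv_inv]

omit [Fintype G] in
theorem isIrr_E {ε : N → ℂ} (hε : IsIrrCharacter N ε) (g : G) :
    IsIrrCharacter N (fun x : N => E N ε g x) := by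
  have h1 := isIrr_comp ((MulAut.conjNormal g⁻¹ : N ≃* N) : N →* N)
    (MulAut.conjNormal g⁻¹ : N ≃* N).surjective hε
  convert h1 using 1
  funext x
  exact E_of_mem N ε g x

omit [Fintype G] hN in
theorem E_mul_right {ε : N → ℂ} (hε : IsClassFunction N ε) (g : G) {n : G} (hn : n ∈ N) (x : G) :
    E N ε (g * n) x = E N ε g x := by
  rw [E_def, E_def]
  have h1 : (g * n)⁻¹ * x * (g * n) = n⁻¹ * (g⁻¹ * x * g) * n := by group
  rw [h1]
  by_cases h : g⁻¹ * x * g ∈ N
  · have h2 : n⁻¹ * (g⁻¹ * x * g) * n ∈ N := N.mul_mem (N.mul_mem (N.inv_mem hn) h) hn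
    rw [extendByZero_of_mem _ _ h, extendByZero_of_mem _ _ h2]
    have h3 := hε ⟨_, h⟩ (⟨n, hn⟩ : N)⁻¹
    rw [← h3]
    congr 1
    apply Subtype.ext
    simp
  · have h2 : n⁻¹ * (g⁻¹ * x * g) * n ∉ N := by
      intro h2
      apply h
      have := N.mul_mem (N.mul_mem hn h2) (N.inv_mem hn)
      have h3 : n * (n⁻¹ * (g⁻¹ * x * g) * n) * n⁻¹ = g⁻¹ * x * g := by group
      rwa [h3] at this
    rw [extendByZero_of_notMem _ _ h, extendByZero_of_notMem _ _ h2]

omit [Fintype G] in
theorem classInner_E [Fintype N] (ε : N → ℂ) {χ : G → ℂ} (hχ : IsClassFunction G χ) (g : G) :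
    classInner (fun x : N => E N ε g x) (fun x : N => χ x) = classInner ε (fun x : N => χ x) := by
  rw [classInner_def, classInner_def]
  congr 1
  refine Fintype.sum_equiv (MulAut.conjNormal g⁻¹ : N ≃* N).toEquiv _ _ fun x => ?_
  have h1 : (MulAut.conjNormal g⁻¹ : N ≃* N).toEquiv x = MulAut.conjNormal g⁻¹ x := rfl
  rw [h1, E_of_mem N ε g x]
  congr 2
  rw [MulAut.conjNormal_apply]
  exact (hχ x g⁻¹).symm

theorem mul_le [Fintype N] (U : Subgroup G) [Fintype U] (hU : U ≤ N) {χ : G → ℂ}
    (hχ : IsIrrCharacter G χ) {ε : N → ℂ} (hε : IsIrrCharacter N ε) {μ : U → ℂ}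
    (hμ : IsCharacter U μ) (g : G) {e n k : ℕ} (he : classInner ε (fun x : N => χ x) = e)
    (hn : classInner (fun x : U => E N ε g x) μ = n)
    (hk : classInner (fun x : U => χ x) μ = k) : e * n ≤ k := by
  classical
  have := finite_irr (G := N)
  have := Fintype.ofFinite (IrrCharacter N)
  have hχN : IsCharacter N (fun x : N => χ x) := isCharacter_comp N.subtype (isIrr_isCharacter hχ)
  obtain ⟨a, ha⟩ := exists_nat_comb hχN
  have hεg := isIrr_E N hε g
  have h1 : (a ⟨_, hεg⟩ : ℂ) = e := by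
    rw [← he, ← classInner_E N ε (isIrr_isClassFunction hχ) g, ← classInner_conj_symm, ha,
      classInner_sum_nsmul_irr a ⟨_, hεg⟩, map_natCast]
  have h1' : a ⟨_, hεg⟩ = e := by exact_mod_cast h1
  have h2 : ∀ ψ : IrrCharacter N, ∃ b : ℕ,
      classInner (fun x : U => (ψ : N → ℂ) (Subgroup.inclusion hU x)) μ = b := fun ψ =>
    classInner_isNat (isCharacter_comp (Subgroup.inclusion hU) (isIrr_isCharacter ψ.2)) hμ
  choose b hb using h2
  have h3 : (fun x : U => χ x) =
      ∑ ψ : IrrCharacter N, ((a ψ : ℕ) : ℂ) • (fun x : U => (ψ : N → ℂ) (Subgroup.inclusion hU x)) := by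
    funext x
    have h4 := congrFun ha (Subgroup.inclusion hU x)
    have h5 : χ (x : G) = χ ((Subgroup.inclusion hU x : N) : G) := rfl
    rw [h5, show χ ((Subgroup.inclusion hU x : N) : G) =
      (∑ ψ : IrrCharacter N, a ψ • (ψ : N → ℂ)) (Subgroup.inclusion hU x) from h4]
    rw [Finset.sum_apply, Finset.sum_apply]
    refine Finset.sum_congr rfl fun ψ _ => ?_
    rw [Pi.smul_apply, Pi.smul_apply, nsmul_eq_mul, smul_eq_mul]
  have h6 : (k : ℂ) = ∑ ψ : IrrCharacter N, (a ψ : ℂ) * b ψ := by
    rw [← hk, h3, classInner_sum_left]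
    refine Finset.sum_congr rfl fun ψ _ => ?_
    rw [classInner_smul_left, hb]
  have h7 : k = ∑ ψ : IrrCharacter N, a ψ * b ψ := by exact_mod_cast h6
  have h8 : b ⟨_, hεg⟩ = n := by
    have : (b ⟨_, hεg⟩ : ℂ) = n := by
      rw [← hb, ← hn]
      rfl
    exact_mod_cast this
  rw [h7, ← h1', ← h8]
  exact Finset.single_le_sum (f := fun ψ : IrrCharacter N => a ψ * b ψ)
    (fun _ _ => Nat.zero_le _) (Finset.mem_univ _)

omit hN in
theorem sum_classInner_E [Fintype N] (U : Subgroup G) [Fintype U] {χ : G → ℂ}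
    (hχ : IsIrrCharacter G χ) (hoff : ∀ g, g ∉ N → χ g = 0)
    {ε : N → ℂ} (hε : IsIrrCharacter N ε) (h0 : classInner ε (fun x : N => χ x) ≠ 0) (μ : U → ℂ) :
    ∑ g : G, classInner (fun x : U => E N ε g x) μ =
      (Nat.card N : ℂ) * (classInner ε (fun x : N => χ x) * classInner (fun x : U => χ x) μ) := by
  simp only [classInner_def (G := U)]
  rw [← Finset.mul_sum, Finset.sum_comm]
  have h1 : ∀ x : U, ∑ g : G, E N ε g x * conj (μ x) =
      ((Nat.card N : ℂ) * classInner ε (fun x : N => χ x)) * (χ x * conj (μ x)) := by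
    intro x
    rw [← Finset.sum_mul, sum_E, indFun_eq N hχ hoff hε h0, Pi.smul_apply, smul_eq_mul]
    ring
  rw [Finset.sum_congr rfl fun x _ => h1 x, ← Finset.mul_sum]
  ring

/-- The weighted sum of the multiplicities of `μ` in the conjugates of `ε`. -/
theorem main [Fintype N] (U : Subgroup G) [Fintype U] (hU : U ≤ N) {χ : G → ℂ}
    (hχ : IsIrrCharacter G χ) (hoff : ∀ g, g ∉ N → χ g = 0)
    {ε : N → ℂ} (hε : IsIrrCharacter N ε) (h0 : classInner ε (fun x : N => χ x) ≠ 0) {μ : U → ℂ}
    (hμ : IsCharacter U μ) (lam : G → ℂ) (hlam : ∀ g, ∀ n ∈ N, lam (g * n) = lam g)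
    (hlam0 : ∀ g, lam g ≠ 0) :
    (classInner (fun x : U => χ x) μ = 0 →
      ∑ g : G, lam g * classInner (fun x : U => E N ε g x) μ = 0) ∧
    (classInner (fun x : U => χ x) μ = 1 →
      ∑ g : G, lam g * classInner (fun x : U => E N ε g x) μ ≠ 0) := by
  classical
  have hsum := sum_classInner_E N U hχ hoff hε h0 μ
  have h2 : ∀ g : G, ∃ a : ℕ, classInner (fun x : U => E N ε g x) μ = a := fun g =>
    classInner_isNat (isCharacter_comp (Subgroup.inclusion hU) (isIrr_isCharacter (isIrr_E N hε g))) hμ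
  choose a ha using h2
  obtain ⟨e, he⟩ := classInner_isNat (isIrr_isCharacter hε)
    (isCharacter_comp N.subtype (isIrr_isCharacter hχ))
  have he' : classInner ε (fun x : N => χ x) = e := he
  have he0 : e ≠ 0 := by
    rintro rfl
    exact h0 (by rw [he', Nat.cast_zero])
  rw [he'] at hsum
  simp only [ha] at hsum ⊢
  constructor
  · intro hk
    rw [hk, mul_zero, mul_zero] at hsum
    have h3 : ∑ g : G, a g = 0 := by exact_mod_cast hsum
    refine Finset.sum_eq_zero fun g _ => ?_
    rw [(Finset.sum_eq_zero_iff.mp h3) g (Finset.mem_univ _), Nat.cast_zero, mul_zero]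
  · intro hk
    rw [hk, mul_one] at hsum
    have h3 : ∑ g : G, a g = Nat.card N * e := by exact_mod_cast hsum
    have h4 : ∀ g, e * a g ≤ 1 := fun g =>
      mul_le N U hU hχ hε hμ g he' (ha g) (hk.trans Nat.cast_one.symm)
    have hNpos : 0 < Nat.card N := Nat.card_pos
    obtain ⟨g0, hg0⟩ : ∃ g, a g ≠ 0 := by
      by_contra hc
      push Not at hc
      rw [Finset.sum_eq_zero fun g _ => hc g] at h3
      have : 0 < Nat.card N * e := Nat.mul_pos hNpos (Nat.pos_of_ne_zero he0)
      omega
    have h5 : e = 1 ∧ a g0 = 1 := by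
      have h6 := h4 g0
      have h7 : 0 < e := Nat.pos_of_ne_zero he0
      have h8 : 0 < a g0 := Nat.pos_of_ne_zero hg0
      constructor
      · nlinarith
      · nlinarith
    rw [h5.1, mul_one] at h3
    have h6 : ∀ n ∈ N, a (g0 * n) = 1 := by
      intro n hn
      have h7 : (a (g0 * n) : ℂ) = a g0 := by
        rw [← ha, ← ha]
        congr 1
        funext x
        exact E_mul_right N (isIrr_isClassFunction hε) g0 hn x
      rw [h5.2] at h7
      exact_mod_cast h7
    have hcard : (Finset.univ.filter fun g : G => g0⁻¹ * g ∈ N).card = Nat.card N := by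
      rw [Nat.card_eq_fintype_card, ← Finset.card_univ (α := N)]
      refine Finset.card_bij' (fun g hg => ⟨g0⁻¹ * g, (Finset.mem_filter.mp hg).2⟩)
        (fun n _ => g0 * n) ?_ ?_ ?_ ?_
      · intro g hg; exact Finset.mem_univ _
      · intro n _
        rw [Finset.mem_filter]
        refine ⟨Finset.mem_univ _, ?_⟩
        rw [inv_mul_cancel_left]
        exact n.2
      · intro g hg
        simp
      · intro n _
        simp
    have h7 : ∀ g ∈ (Finset.univ.filter fun g : G => g0⁻¹ * g ∈ N), a g = 1 ∧ lam g = lam g0 := by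
      intro g hg
      have hg' := (Finset.mem_filter.mp hg).2
      have h8 := h6 _ hg'
      have h9 := hlam g0 _ hg'
      rw [mul_inv_cancel_left] at h8 h9
      exact ⟨h8, h9⟩
    have h8 : ∑ g ∈ (Finset.univ.filter fun g : G => ¬ g0⁻¹ * g ∈ N), a g = 0 := by
      have h9 := Finset.sum_filter_add_sum_filter_not Finset.univ (fun g : G => g0⁻¹ * g ∈ N) a
      rw [Finset.sum_congr rfl fun g hg => (h7 g hg).1, Finset.sum_const, hcard, h3, smul_eq_mul,
        mul_one] at h9
      omega
    rw [← Finset.sum_filter_add_sum_filter_not Finset.univ (fun g : G => g0⁻¹ * g ∈ N)]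
    have h9 : ∑ g ∈ (Finset.univ.filter fun g : G => ¬ g0⁻¹ * g ∈ N), lam g * (a g : ℂ) = 0 := by
      refine Finset.sum_eq_zero fun g hg => ?_
      rw [(Finset.sum_eq_zero_iff.mp h8) g hg, Nat.cast_zero, mul_zero]
    have h10 : ∑ g ∈ (Finset.univ.filter fun g : G => g0⁻¹ * g ∈ N), lam g * (a g : ℂ) =
        Nat.card N * lam g0 := by
      rw [Finset.sum_congr rfl fun g hg => show lam g * (a g : ℂ) = lam g0 by
        rw [(h7 g hg).1, (h7 g hg).2, Nat.cast_one, mul_one], Finset.sum_const, hcard, nsmul_eq_mul]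
    rw [h9, h10, add_zero]
    exact mul_ne_zero card_ne_zero_complex (hlam0 g0)

end normal

/-- an irreducible character does not vanish at a central element -/
theorem ne_zero_of_central {χ : G → ℂ} (hχ : IsIrrCharacter G χ) {z : G} (hz : ∀ g, g * z = z * g) :
    χ z ≠ 0 := by
  intro h
  have h1 := Cfsg.Agent.Characters.Central.sum_char_conj_mul hχ z z⁻¹
  rw [h] at h1
  have h2 : ∀ a : G, a * z * a⁻¹ * z⁻¹ = 1 := fun a => by
    rw [hz a]; group
  simp only [h2, Finset.sum_const, Finset.card_univ, nsmul_eq_mul] at h1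
  rw [mul_zero, zero_mul, zero_div] at h1
  rcases mul_eq_zero.mp h1 with h3 | h3
  · rw [← Nat.card_eq_fintype_card] at h3
    exact card_ne_zero_complex h3
  · exact isIrr_apply_one_ne_zero hχ h3

end Cfsg.Agent.H505.S4536.Abs
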