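import Mathlib.NumberTheory.GaussSum
import Mathlib.Analysis.RCLike.Basic
import Cfsg.Agent.SylowL.Lower
import Cfsg.Agent.H505.S4536.Abs
import Cfsg.Agent.H505.S4536.Conj

/-!
# The twisted value of a constituent at a regular unipotent element
-/

set_option autoImplicit false

open scoped ComplexConjugate
open Cfsg
open Cfsg.Agent.Characters.Core

namespace Cfsg.Agent.H505.S4536

universe u

variable {F : Type u} [Field F]

theorem mem_US {n : ℕ} (x : GL (Fin n) F) :
    x ∈ Cfsg.Agent.SylowL.UT.UT n F ↔ UT (x : Matrix (Fin n) (Fin n) F) := by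
  have h0 : x ∈ Cfsg.Agent.SylowL.UT.UT n F ↔
      ∀ i j : Fin n, ((x : Matrix (Fin n) (Fin n) F) - 1) i j ≠ 0 → (i : ℕ) + 1 ≤ j := Iff.rfl
  rw [h0]
  constructor
  · intro h
    constructor
    · intro i
      by_contra hc
      have := h i i (by rw [Matrix.sub_apply, Matrix.one_apply_eq]; exact sub_ne_zero.mpr hc)
      omega
    · intro i j hij
      by_contra hc
      have := h i j (by rw [Matrix.sub_apply, Matrix.one_apply_ne hij.ne', sub_zero]; exact hc)
      rw [Fin.lt_def] at hij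
      omega
  · intro h i j hij
    by_contra hc
    apply hij
    rw [Matrix.sub_apply]
    rcases (show j ≤ i by rw [Fin.le_def]; omega).eq_or_lt with h1 | h1
    · rw [h1, h.1, Matrix.one_apply_eq, sub_self]
    · rw [h.2 _ _ h1, Matrix.one_apply_ne h1.ne', sub_self]

/-- diagonal matrices -/
def tor {n : ℕ} (t : Fin n → Fˣ) : GL (Fin n) F :=
  ⟨Matrix.diagonal fun i => (t i : F), Matrix.diagonal fun i => (((t i)⁻¹ : Fˣ) : F),
    by rw [Matrix.diagonal_mul_diagonal]; simp, by rw [Matrix.diagonal_mul_diagonal]; simp⟩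

theorem tor_conj {n : ℕ} (t : Fin n → Fˣ) (x : GL (Fin n) F) (i j : Fin n) :
    (tor t * x * (tor t)⁻¹).1 i j = t i * x.1 i j * ((t j)⁻¹ : Fˣ) := by
  rw [Units.val_mul, Units.val_mul]
  change ((Matrix.diagonal fun i => (t i : F)) * x.1 * (Matrix.diagonal fun i => (((t i)⁻¹ : Fˣ) : F)))
    i j = _
  rw [Matrix.mul_diagonal, Matrix.diagonal_mul]

theorem tor_conj' {n : ℕ} (t : Fin n → Fˣ) (x : GL (Fin n) F) (i j : Fin n) :
    ((tor t)⁻¹ * x * tor t).1 i j = ((t i)⁻¹ : Fˣ) * x.1 i j * t j := by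
  rw [Units.val_mul, Units.val_mul]
  change ((Matrix.diagonal fun i => (((t i)⁻¹ : Fˣ) : F)) * x.1 * (Matrix.diagonal fun i => (t i : F)))
    i j = _
  rw [Matrix.mul_diagonal, Matrix.diagonal_mul]

theorem UT_tor_conj {n : ℕ} (t : Fin n → Fˣ) {x : GL (Fin n) F}
    (hx : UT (x : Matrix (Fin n) (Fin n) F)) :
    UT ((tor t * x * (tor t)⁻¹ : GL (Fin n) F) : Matrix (Fin n) (Fin n) F) := by
  constructor
  · intro i
    rw [tor_conj, hx.1, mul_one, Units.mul_inv]
  · intro i j hij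
    rw [tor_conj, hx.2 _ _ hij, mul_zero, zero_mul]

theorem UT_tor_conj' {n : ℕ} (t : Fin n → Fˣ) {x : GL (Fin n) F}
    (hx : UT (x : Matrix (Fin n) (Fin n) F)) :
    UT (((tor t)⁻¹ * x * tor t : GL (Fin n) F) : Matrix (Fin n) (Fin n) F) := by
  constructor
  · intro i
    rw [tor_conj', hx.1, mul_one, Units.inv_mul]
  · intro i j hij
    rw [tor_conj', hx.2 _ _ hij, mul_zero, zero_mul]

theorem det_tor {n : ℕ} (t : Fin n → Fˣ) :
    Matrix.GeneralLinearGroup.det (tor t) = ∏ i, t i := by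
  apply Units.ext
  change (Matrix.diagonal fun i => (t i : F)).det = _
  rw [Matrix.det_diagonal, Units.coe_prod]

/-- suffix products -/
def suf {m : ℕ} (c : Fin m → Fˣ) (i : Fin (m + 1)) : Fˣ :=
  ∏ j ∈ Finset.univ.filter (fun j : Fin m => i ≤ j.castSucc), c j

theorem suf_castSucc {m : ℕ} (c : Fin m → Fˣ) (i : Fin m) :
    suf c i.castSucc = c i * suf c i.succ := by
  rw [suf, suf]
  have h1 : (Finset.univ.filter (fun j : Fin m => i.castSucc ≤ j.castSucc)) =
      insert i (Finset.univ.filter (fun j : Fin m => i.succ ≤ j.castSucc)) := by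
    ext j
    simp only [Finset.mem_filter, Finset.mem_univ, true_and, Finset.mem_insert, Fin.le_def,
      Fin.val_castSucc, Fin.val_succ, Fin.ext_iff]
    omega
  rw [h1, Finset.prod_insert]
  simp [Fin.le_def]

theorem prod_suf {m : ℕ} (c : Fin m → Fˣ) :
    ∏ i, suf c i = ∏ j : Fin m, c j ^ (Finset.univ.filter (fun i : Fin (m + 1) => i ≤ j.castSucc)).card := by
  simp only [suf, Finset.prod_filter]
  rw [Finset.prod_comm]
  refine Finset.prod_congr rfl fun j _ => ?_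
  rw [← Finset.prod_filter, Finset.prod_const]

theorem psi_sum {ι : Type*} (s : Finset ι) (ψ : AddChar F ℂ) (f : ι → F) :
    ψ (∑ i ∈ s, f i) = ∏ i ∈ s, ψ (f i) := by
  classical
  induction s using Finset.induction_on with
  | empty => simp
  | insert a s ha ih => rw [Finset.sum_insert ha, Finset.prod_insert ha, AddChar.map_add_eq_mul, ih]

/-- the additive character sum over all functions -/
theorem sum_psi {m : ℕ} [Fintype F] [DecidableEq F] {ψ : AddChar F ℂ} (hψ : ψ ≠ 1) (d : Fin m → F) :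
    ∑ c : Fin m → F, ψ (∑ i, c i * d i) =
      ∏ i, (if d i = 0 then (Fintype.card F : ℂ) else 0) := by
  have h1 : ∀ c : Fin m → F, ψ (∑ i, c i * d i) = ∏ i, ψ (c i * d i) := fun c =>
    psi_sum _ ψ _
  simp only [h1]
  have h2 := Finset.prod_univ_sum (fun _ : Fin m => (Finset.univ : Finset F)) (fun i a => ψ (a * d i))
  rw [Fintype.piFinset_univ] at h2
  rw [← h2]
  refine Finset.prod_congr rfl fun i _ => ?_
  rw [AddChar.sum_mulShift (d i) (AddChar.IsPrimitive.of_ne_one hψ)]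
  split_ifs <;> simp

theorem gaussSum_ne_zero [Fintype F] {ψ : AddChar F ℂ} (hψ : ψ ≠ 1) (B : MulChar F ℂ) :
    gaussSum B ψ ≠ 0 := by
  by_cases hB : B = 1
  · rw [hB, gaussSum_one_left hψ]
    exact neg_ne_zero.mpr one_ne_zero
  · exact gaussSum_ne_zero_of_nontrivial (Nat.cast_ne_zero.mpr Fintype.card_ne_zero) hB
      (AddChar.IsPrimitive.of_ne_one hψ)

section fn

variable {m : ℕ} [Fintype (GL (Fin (m + 1)) F)] (α : Fˣ →* ℂˣ) (N : Subgroup (GL (Fin (m + 1)) F))
  (ε : N → ℂ)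

/-- the twisted sum -/
noncomputable def fn (x : GL (Fin (m + 1)) F) : ℂ :=
  ∑ g : GL (Fin (m + 1)) F, (α (Matrix.GeneralLinearGroup.det g) : ℂ) * Abs.E N ε g x

theorem fn_def (x : GL (Fin (m + 1)) F) : fn α N ε x =
    ∑ g : GL (Fin (m + 1)) F, (α (Matrix.GeneralLinearGroup.det g) : ℂ) * Abs.E N ε g x := rfl

theorem fn_conj (h x : GL (Fin (m + 1)) F) :
    fn α N ε (h * x * h⁻¹) = (α (Matrix.GeneralLinearGroup.det h) : ℂ) * fn α N ε x := by
  rw [fn_def, fn_def, Finset.mul_sum]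
  refine (Fintype.sum_equiv (Equiv.mulLeft h) _ _ fun g => ?_).symm
  have h0 : Equiv.mulLeft h g = h * g := rfl
  have h1 : (h * g)⁻¹ * (h * x * h⁻¹) * (h * g) = g⁻¹ * x * g := by group
  rw [h0, map_mul, map_mul, Units.val_mul, mul_assoc, Abs.E_def, Abs.E_def, h1]

variable (T : Finset (GL (Fin (m + 1)) F)) (ψ : AddChar F ℂ)

/-- the Fourier coefficient -/
noncomputable def fhat (c : Fin m → F) : ℂ :=
  ∑ x ∈ T, fn α N ε x * ψ (∑ i : Fin m, c i * x.1 i.castSucc i.succ)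

theorem fhat_def (c : Fin m → F) : fhat α N ε T ψ c =
  ∑ x ∈ T, fn α N ε x * ψ (∑ i : Fin m, c i * x.1 i.castSucc i.succ) := rfl

theorem fhat_one (hT : ∀ x, x ∈ T ↔ UT (x : Matrix (Fin (m + 1)) (Fin (m + 1)) F)) (c : Fin m → Fˣ) :
    fhat α N ε T ψ (fun _ => 1) =
      (α (∏ i, suf c i) : ℂ) * fhat α N ε T ψ (fun i => (c i : F)) := by
  rw [fhat_def, fhat_def, Finset.mul_sum, ← det_tor]
  symm
  refine Finset.sum_bij' (fun y _ => tor (suf c) * y * (tor (suf c))⁻¹)
    (fun y _ => (tor (suf c))⁻¹ * y * tor (suf c)) ?_ ?_ ?_ ?_ ?_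
  · intro y hy
    exact (hT _).mpr (UT_tor_conj _ ((hT _).mp hy))
  · intro y hy
    exact (hT _).mpr (UT_tor_conj' _ ((hT _).mp hy))
  · intro y _; group
  · intro y _; group
  · intro y _
    have h2 : ∑ i : Fin m, (c i : F) * y.1 i.castSucc i.succ =
        ∑ i : Fin m, 1 * (tor (suf c) * y * (tor (suf c))⁻¹).1 i.castSucc i.succ := by
      refine Finset.sum_congr rfl fun i _ => ?_
      rw [tor_conj, suf_castSucc, one_mul, Units.val_mul]
      have h1 : ((suf c i.succ : Fˣ) : F) * ((suf c i.succ)⁻¹ : Fˣ) = 1 := Units.mul_inv _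
      calc (c i : F) * y.1 i.castSucc i.succ
          = (c i : F) * y.1 i.castSucc i.succ * (((suf c i.succ : Fˣ) : F) * ((suf c i.succ)⁻¹ : Fˣ)) := by
            rw [h1, mul_one]
        _ = _ := by ring
    rw [fn_conj, h2]
    ring

/-- the multiplicative character of the `i`-th coordinate -/
noncomputable def B (α : Fˣ →* ℂˣ) (i : Fin m) : MulChar F ℂ :=
  MulChar.ofUnitHom (α ^ (Finset.univ.filter (fun k : Fin (m + 1) => k ≤ i.castSucc)).card)⁻¹

theorem fhat_eq (hT : ∀ x, x ∈ T ↔ UT (x : Matrix (Fin (m + 1)) (Fin (m + 1)) F))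
    (hdeg : ∀ c : Fin m → F, (∃ i, c i = 0) → fhat α N ε T ψ c = 0) (c : Fin m → F) :
    fhat α N ε T ψ c = fhat α N ε T ψ (fun _ => 1) * ∏ i, B α i (c i) := by
  by_cases hc : ∃ i, c i = 0
  · rw [hdeg c hc]
    obtain ⟨i, hi⟩ := hc
    rw [Finset.prod_eq_zero (Finset.mem_univ i), mul_zero]
    rw [hi]
    exact MulChar.map_zero _
  · push Not at hc
    have h1 := fhat_one α N ε T ψ hT (fun i => Units.mk0 (c i) (hc i))
    have h2 : (fun i => ((Units.mk0 (c i) (hc i) : Fˣ) : F)) = c := rfl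
    rw [h2, prod_suf] at h1
    rw [h1, mul_comm, ← mul_assoc]
    have h3 : (∏ i, B α i (c i)) * ((α (∏ j : Fin m, Units.mk0 (c j) (hc j) ^
        (Finset.univ.filter (fun i : Fin (m + 1) => i ≤ j.castSucc)).card) : ℂˣ) : ℂ) = 1 := by
      rw [map_prod, Units.coe_prod, ← Finset.prod_mul_distrib]
      refine Finset.prod_eq_one fun i _ => ?_
      have h4 : c i = ((Units.mk0 (c i) (hc i) : Fˣ) : F) := rfl
      rw [B]
      conv_lhs =>
        enter [1]
        rw [h4]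
      rw [MulChar.ofUnitHom_coe, map_pow, MonoidHom.inv_apply, MonoidHom.pow_apply, ← Units.val_mul,
        inv_mul_cancel, Units.val_one]
    rw [h3, one_mul]

theorem fn_ne_zero [Fintype F] (hψ : ψ ≠ 1)
    (hT : ∀ x, x ∈ T ↔ UT (x : Matrix (Fin (m + 1)) (Fin (m + 1)) F))
    (hdeg : ∀ c : Fin m → F, (∃ i, c i = 0) → fhat α N ε T ψ c = 0)
    (h1 : fhat α N ε T ψ (fun _ => 1) ≠ 0)
    (u : GL (Fin (m + 1)) F) (hu : UT (u : Matrix (Fin (m + 1)) (Fin (m + 1)) F))
    (hur : ∀ i : Fin m, u.1 i.castSucc i.succ ≠ 0) : fn α N ε u ≠ 0 := by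
  classical
  intro hf
  have key : ∑ c : Fin m → F, fhat α N ε T ψ c * ψ (∑ i : Fin m, c i * (-(u.1 i.castSucc i.succ))) =
      ∑ x ∈ T, fn α N ε x * ∏ i : Fin m, (if x.1 i.castSucc i.succ + (-(u.1 i.castSucc i.succ)) = 0
        then (Fintype.card F : ℂ) else 0) := by
    simp only [fhat_def, Finset.sum_mul]
    rw [Finset.sum_comm]
    refine Finset.sum_congr rfl fun x _ => ?_
    rw [← sum_psi hψ, Finset.mul_sum]
    refine Finset.sum_congr rfl fun c _ => ?_
    rw [mul_assoc, ← AddChar.map_add_eq_mul, ← Finset.sum_add_distrib]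
    congr 2
    refine Finset.sum_congr rfl fun i _ => ?_
    ring
  have hR : ∑ x ∈ T, fn α N ε x * ∏ i : Fin m, (if x.1 i.castSucc i.succ + (-(u.1 i.castSucc i.succ)) = 0
        then (Fintype.card F : ℂ) else 0) = 0 := by
    refine Finset.sum_eq_zero fun x hx => ?_
    by_cases h : ∀ i : Fin m, x.1 i.castSucc i.succ = u.1 i.castSucc i.succ
    · obtain ⟨g, hg, hgx⟩ := exists_conj hu ((hT x).mp hx) hur h
      rw [← hgx, fn_conj, hf, mul_zero, zero_mul]
    · push Not at h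
      obtain ⟨i, hi⟩ := h
      rw [Finset.prod_eq_zero (Finset.mem_univ i), mul_zero]
      rw [if_neg]
      rw [← sub_eq_add_neg]
      exact sub_ne_zero.mpr hi
  rw [hR] at key
  have hL : ∑ c : Fin m → F, fhat α N ε T ψ c * ψ (∑ i : Fin m, c i * (-(u.1 i.castSucc i.succ))) =
      fhat α N ε T ψ (fun _ => 1) *
        ∏ i : Fin m, gaussSum (B α i) (ψ.mulShift (-(u.1 i.castSucc i.succ))) := by
    simp only [gaussSum]
    have h2 := Finset.prod_univ_sum (fun _ : Fin m => (Finset.univ : Finset F))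
      (fun i a => B α i a * (ψ.mulShift (-(u.1 i.castSucc i.succ))) a)
    rw [Fintype.piFinset_univ] at h2
    rw [h2, Finset.mul_sum]
    refine Finset.sum_congr rfl fun c _ => ?_
    rw [fhat_eq α N ε T ψ hT hdeg c, mul_assoc, Finset.prod_mul_distrib, psi_sum]
    congr 2
    refine Finset.prod_congr rfl fun i _ => ?_
    rw [AddChar.mulShift_apply, mul_comm]
  rw [hL] at key
  refine mul_ne_zero h1 (Finset.prod_ne_zero_iff.mpr fun i _ => ?_) key
  apply gaussSum_ne_zero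
  exact AddChar.IsPrimitive.of_ne_one hψ (neg_ne_zero.mpr (hur i))

/-- the linear character of the unitriangular group -/
noncomputable def mu (c : Fin m → F) (x : Cfsg.Agent.SylowL.UT.UT (m + 1) F) : ℂ :=
  ψ (-(∑ i : Fin m, c i * x.1.1 i.castSucc i.succ))

omit [Fintype (GL (Fin (m + 1)) F)] in
theorem isCharacter_mu (c : Fin m → F) :
    IsCharacter (Cfsg.Agent.SylowL.UT.UT (m + 1) F) (mu ψ c) := by
  let f : Cfsg.Agent.SylowL.UT.UT (m + 1) F →* ℂ :=
    { toFun := mu ψ c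
      map_one' := by
        have h1 : ∑ i : Fin m, c i *
            (1 : Cfsg.Agent.SylowL.UT.UT (m + 1) F).1.1 i.castSucc i.succ = 0 := by
          refine Finset.sum_eq_zero fun i _ => ?_
          rw [OneMemClass.coe_one, Units.val_one, Matrix.one_apply_ne (Fin.castSucc_lt_succ).ne, mul_zero]
        rw [mu, h1, neg_zero, AddChar.map_zero_eq_one]
      map_mul' := by
        intro x y
        have h1 : ∑ i : Fin m, c i * (x * y).1.1 i.castSucc i.succ =
            ∑ i : Fin m, c i * x.1.1 i.castSucc i.succ + ∑ i : Fin m, c i * y.1.1 i.castSucc i.succ := by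
          rw [← Finset.sum_add_distrib]
          refine Finset.sum_congr rfl fun i _ => ?_
          rw [Subgroup.coe_mul, Units.val_mul,
            UT.mul_sup ((mem_US x.1).mp x.2) ((mem_US y.1).mp y.2), mul_add]
        rw [mu, mu, mu, h1, neg_add, AddChar.map_add_eq_mul] }
  exact Cfsg.Agent.Characters.Linear.isCharacter_hom f.toHomUnits

omit [Fintype (GL (Fin (m + 1)) F)] in
theorem classInner_mu [Fintype (Cfsg.Agent.SylowL.UT.UT (m + 1) F)] [Finite F]
    (hT : ∀ x, x ∈ T ↔ UT (x : Matrix (Fin (m + 1)) (Fin (m + 1)) F)) (φ : GL (Fin (m + 1)) F → ℂ)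
    (c : Fin m → F) :
    classInner (fun x : Cfsg.Agent.SylowL.UT.UT (m + 1) F => φ x) (mu ψ c) =
      (Nat.card (Cfsg.Agent.SylowL.UT.UT (m + 1) F) : ℂ)⁻¹ *
        ∑ x ∈ T, φ x * ψ (∑ i : Fin m, c i * x.1 i.castSucc i.succ) := by
  rw [classInner_def, Finset.sum_subtype T (p := fun x => x ∈ Cfsg.Agent.SylowL.UT.UT (m + 1) F)
    (fun x => (hT x).trans (mem_US x).symm)]
  congr 1
  refine Finset.sum_congr rfl fun x _ => ?_
  rw [mu, AddChar.map_neg_eq_conj, Complex.conj_conj]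

theorem fhat_eq_sum [Fintype (Cfsg.Agent.SylowL.UT.UT (m + 1) F)] [Finite F]
    (hT : ∀ x, x ∈ T ↔ UT (x : Matrix (Fin (m + 1)) (Fin (m + 1)) F)) (c : Fin m → F) :
    fhat α N ε T ψ c = (Nat.card (Cfsg.Agent.SylowL.UT.UT (m + 1) F) : ℂ) *
      ∑ g : GL (Fin (m + 1)) F, (α (Matrix.GeneralLinearGroup.det g) : ℂ) *
        classInner (fun x : Cfsg.Agent.SylowL.UT.UT (m + 1) F => Abs.E N ε g x) (mu ψ c) := by
  simp only [classInner_mu T ψ hT]
  rw [Finset.mul_sum]
  have h1 : ∀ g : GL (Fin (m + 1)) F, (Nat.card (Cfsg.Agent.SylowL.UT.UT (m + 1) F) : ℂ) *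
      ((α (Matrix.GeneralLinearGroup.det g) : ℂ) *
        ((Nat.card (Cfsg.Agent.SylowL.UT.UT (m + 1) F) : ℂ)⁻¹ *
          ∑ x ∈ T, Abs.E N ε g x * ψ (∑ i : Fin m, c i * x.1 i.castSucc i.succ))) =
      ∑ x ∈ T, (α (Matrix.GeneralLinearGroup.det g) : ℂ) * Abs.E N ε g x *
        ψ (∑ i : Fin m, c i * x.1 i.castSucc i.succ) := by
    intro g
    have h2 : (Nat.card (Cfsg.Agent.SylowL.UT.UT (m + 1) F) : ℂ) *
      (Nat.card (Cfsg.Agent.SylowL.UT.UT (m + 1) F) : ℂ)⁻¹ = 1 := mul_inv_cancel₀ card_ne_zero_complex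
    simp only [mul_assoc]
    rw [← Finset.mul_sum]
    rw [mul_left_comm, ← mul_assoc (Nat.card _ : ℂ), h2, one_mul]
  rw [Finset.sum_congr rfl fun g _ => h1 g, Finset.sum_comm, fhat_def]
  refine Finset.sum_congr rfl fun x _ => ?_
  rw [fn_def, Finset.sum_mul]

end fn

theorem aux [Fintype F] (m : ℕ) [Fintype (GL (Fin (m + 1)) F)] (ψ : AddChar F ℂ) (hψ : ψ ≠ 1)
    {χ : GL (Fin (m + 1)) F → ℂ} (hχ : IsIrrCharacter (GL (Fin (m + 1)) F) χ)
    (T : Finset (GL (Fin (m + 1)) F))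
    (hT : ∀ x, x ∈ T ↔ UT (x : Matrix (Fin (m + 1)) (Fin (m + 1)) F))
    (h1 : ∀ c : Fin m → F, (∀ i, c i ≠ 0) →
      ∑ x ∈ T, χ x * ψ (∑ i : Fin m, c i * x.1 i.castSucc i.succ) =
          (Fintype.card F : ℂ) ^ (m * (m + 1) / 2))
    (h2 : ∀ c : Fin m → F, (∃ i, c i = 0) →
      ∑ x ∈ T, χ x * ψ (∑ i : Fin m, c i * x.1 i.castSucc i.succ) = 0)
    (α : Fˣ →* ℂˣ) (hα : ∀ g : GL (Fin (m + 1)) F, α (Matrix.GeneralLinearGroup.det g) ≠ 1 → χ g = 0)
    (N : Subgroup (GL (Fin (m + 1)) F)) (hN : ∀ g, g ∈ N ↔ α (Matrix.GeneralLinearGroup.det g) = 1)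
    [Fintype N] {ε : N → ℂ} (hε : IsIrrCharacter N ε) (hε0 : classInner ε (fun x : N => χ x) ≠ 0)
    (u : GL (Fin (m + 1)) F) (hu : UT (u : Matrix (Fin (m + 1)) (Fin (m + 1)) F))
    (hur : ∀ i : Fin m, u.1 i.castSucc i.succ ≠ 0) :
    (∀ z : Fˣ, α (z ^ (m + 1)) = 1) ∧ fn α N ε u ≠ 0 := by
  classical
  have hNn : N.Normal := ⟨fun n hn g => by
    rw [hN] at hn ⊢
    simp only [map_mul, map_inv, hn, mul_one, mul_inv_cancel]⟩
  constructor
  · intro z
    by_contra hz
    have h3 : Matrix.GeneralLinearGroup.det (tor fun _ : Fin (m + 1) => z) = z ^ (m + 1) := by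
      rw [det_tor, Finset.prod_const, Finset.card_univ, Fintype.card_fin]
    refine Abs.ne_zero_of_central hχ (z := tor fun _ : Fin (m + 1) => z) ?_ (hα _ (by rwa [h3]))
    intro g
    apply Units.ext
    ext i j
    rw [Units.val_mul, Units.val_mul]
    change ((g.1 * (Matrix.diagonal fun _ => (z : F)) : Matrix (Fin (m + 1)) (Fin (m + 1)) F)) i j =
      (((Matrix.diagonal fun _ => (z : F)) * g.1 : Matrix (Fin (m + 1)) (Fin (m + 1)) F)) i j
    rw [Matrix.mul_diagonal, Matrix.diagonal_mul, mul_comm]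
  · have hU : Cfsg.Agent.SylowL.UT.UT (m + 1) F ≤ N := by
      intro x hx
      rw [hN]
      have h3 : Matrix.GeneralLinearGroup.det x = 1 := Units.ext (((mem_US x).mp hx).det)
      rw [h3, map_one]
    have hoff : ∀ g, g ∉ N → χ g = 0 := fun g hg => hα g fun h => hg ((hN g).mpr h)
    have hcard : (Nat.card (Cfsg.Agent.SylowL.UT.UT (m + 1) F) : ℂ) =
        (Fintype.card F : ℂ) ^ (m * (m + 1) / 2) := by
      rw [Cfsg.Agent.SylowL.Lower.card_UT, Nat.card_eq_fintype_card, Nat.add_sub_cancel, mul_comm (m + 1) m,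
        Nat.cast_pow]
    have hmain := fun c : Fin m → F => Abs.main N (Cfsg.Agent.SylowL.UT.UT (m + 1) F) hU hχ hoff hε hε0
      (isCharacter_mu ψ c) (fun g => (α (Matrix.GeneralLinearGroup.det g) : ℂ))
      (fun g n hn => by
        have h3 := (hN n).mp hn
        rw [map_mul, map_mul, h3, mul_one])
      (fun g => Units.ne_zero _)
    refine fn_ne_zero α N ε T ψ hψ hT ?_ ?_ u hu hur
    · intro c hc
      rw [fhat_eq_sum α N ε T ψ hT c, (hmain c).1, mul_zero]
      rw [classInner_mu T ψ hT χ c, h2 c hc, mul_zero]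
    · rw [fhat_eq_sum α N ε T ψ hT]
      refine mul_ne_zero card_ne_zero_complex ((hmain _).2 ?_)
      rw [classInner_mu T ψ hT χ, h1 _ (fun _ => one_ne_zero), hcard, inv_mul_cancel₀]
      exact pow_ne_zero _ (Nat.cast_ne_zero.mpr Fintype.card_ne_zero)

end Cfsg.Agent.H505.S4536
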