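import Cfsg.Agent.H139.Cusp.Main
import Cfsg.Agent.H505.S4536.Twist

/-!
# The twisted value of a constituent at a regular unipotent element: final form
-/

set_option autoImplicit false
open Polynomial Cfsg
open scoped ComplexConjugate

namespace Cfsg.Agent.H505.S4536
open Cfsg.Agent.H139.Cusp
universe u v w
attribute [local instance] fintypeHom fintypeSub finite_quot

open Classical in
/-- T1d: the twisted value at a regular unipotent element.  `χ` is an irreducible character of `GL_{m+1}(F)` that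
contains every nondegenerate linear character of the unitriangular group exactly once and no degenerate one and
vanishes off the kernel `N` of `α ∘ det`; `ε` is a constituent of the restriction to `N`. -/
theorem twisted_value {F : Type u} [Field F] [Fintype F] (m : ℕ) (ψ : AddChar F ℂ) (hψ : ψ ≠ 1)
    (χ : IrrCharacter (GL (Fin (m + 1)) F))
    (h1 : ∀ c : Fin m → F, (∀ i, c i ≠ 0) →
      ∑ x ∈ Finset.univ.filter (fun x : GL (Fin (m + 1)) F => UT (x : Matrix (Fin (m + 1)) (Fin (m + 1)) F)),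
        (χ : GL (Fin (m + 1)) F → ℂ) x * ψ (∑ i : Fin m, c i * x.1 i.castSucc i.succ) =
          (Fintype.card F : ℂ) ^ (m * (m + 1) / 2))
    (h2 : ∀ c : Fin m → F, (∃ i, c i = 0) →
      ∑ x ∈ Finset.univ.filter (fun x : GL (Fin (m + 1)) F => UT (x : Matrix (Fin (m + 1)) (Fin (m + 1)) F)),
        (χ : GL (Fin (m + 1)) F → ℂ) x * ψ (∑ i : Fin m, c i * x.1 i.castSucc i.succ) = 0)
    (α : Fˣ →* ℂˣ) (hα : ∀ g : GL (Fin (m + 1)) F, α (Matrix.GeneralLinearGroup.det g) ≠ 1 →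
      (χ : GL (Fin (m + 1)) F → ℂ) g = 0)
    (N : Subgroup (GL (Fin (m + 1)) F)) (hN : ∀ g, g ∈ N ↔ α (Matrix.GeneralLinearGroup.det g) = 1)
    (ε : IrrCharacter N) (hε : classInner (ε : N → ℂ) (fun x : N => (χ : GL (Fin (m + 1)) F → ℂ) x) ≠ 0)
    (u : GL (Fin (m + 1)) F) (hu : UT (u : Matrix (Fin (m + 1)) (Fin (m + 1)) F))
    (hur : ∀ i : Fin m, u.1 i.castSucc i.succ ≠ 0) :
    (∀ z : Fˣ, α (z ^ (m + 1)) = 1) ∧
    ∑ g : GL (Fin (m + 1)) F, (α (Matrix.GeneralLinearGroup.det g) : ℂ) *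
      (if h : g⁻¹ * u * g ∈ N then (ε : N → ℂ) ⟨g⁻¹ * u * g, h⟩ else 0) ≠ 0 := by
  have h := aux m ψ hψ χ.2 (Finset.univ.filter (fun x : GL (Fin (m + 1)) F =>
    UT (x : Matrix (Fin (m + 1)) (Fin (m + 1)) F))) (fun x => by
      rw [Finset.mem_filter]
      exact ⟨fun h => h.2, fun h => ⟨Finset.mem_univ _, h⟩⟩) h1 h2 α hα N hN ε.2 hε u hu hur
  refine ⟨h.1, ?_⟩
  have h3 : ∑ g : GL (Fin (m + 1)) F, (α (Matrix.GeneralLinearGroup.det g) : ℂ) *
      (if h : g⁻¹ * u * g ∈ N then (ε : N → ℂ) ⟨g⁻¹ * u * g, h⟩ else 0) = fn α N ε.1 u := by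
    rw [fn_def]
    refine Finset.sum_congr rfl fun g _ => ?_
    rw [Abs.E_def]
    by_cases hg : g⁻¹ * u * g ∈ N
    · rw [dif_pos hg, Cfsg.Agent.Characters.Core.extendByZero_of_mem _ _ hg]
    · rw [dif_neg hg, Cfsg.Agent.Characters.Core.extendByZero_of_notMem _ _ hg]
  rw [h3]
  exact h.2

end Cfsg.Agent.H505.S4536
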